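import Mathlib

/-!
# Arithmetic for the characters of order `(q^m - 1)/(q - 1)` (helper732, S4832)

`q = r ^ f`, `M = 1 + q + ... + q^(m-1)`, `m ≥ 2`: `M ∣ r^t - 1` implies `f ∣ t`; `M ∣ r^t + 1` implies `m = 2` and
`f ∣ t`.
-/

set_option autoImplicit false

namespace Cfsg.Agent.H732.ExtPSL

variable {r f m : ℕ}

theorem geo_lower (k q : ℕ) : 1 + q ^ (k + 1) ≤ ∑ i ∈ Finset.range (k + 2), q ^ i := by
  rw [Finset.sum_range_succ, Finset.sum_range_succ', pow_zero]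
  omega

theorem geo_lower' (k q : ℕ) (hk : 1 ≤ k) : 1 + q + q ^ (k + 1) ≤ ∑ i ∈ Finset.range (k + 2), q ^ i := by
  rw [Finset.sum_range_succ, Finset.sum_range_succ', pow_zero]
  have h : q ≤ ∑ i ∈ Finset.range k, q ^ (i + 1) := by
    have h1 := Finset.single_le_sum (f := fun i => q ^ (i + 1)) (s := Finset.range k) (fun i _ => Nat.zero_le _)
      (Finset.mem_range.2 (show 0 < k by omega))
    simpa using h1
  omega

theorem geo_coprime (hf : 0 < f) (hm : 2 ≤ m) : Nat.Coprime (∑ i ∈ Finset.range m, (r ^ f) ^ i) r := by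
  obtain ⟨k, rfl⟩ : ∃ k, m = k + 1 := ⟨m - 1, by omega⟩
  rw [Finset.sum_range_succ', pow_zero]
  have h1 : r ∣ ∑ i ∈ Finset.range k, (r ^ f) ^ (i + 1) := by
    apply Finset.dvd_sum
    intro i _
    exact (dvd_pow_self r hf.ne').trans (dvd_pow_self _ (Nat.succ_ne_zero i))
  obtain ⟨c, hc⟩ := h1
  rw [hc, Nat.coprime_mul_left_add_left]
  exact Nat.coprime_one_left r

/-- `r ^ (f m) = 1` modulo `M` -/
theorem geo_pow_eq (hr : 2 ≤ r) :
    ((r : ZMod (∑ i ∈ Finset.range m, (r ^ f) ^ i)) ^ (f * m)) = 1 := by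
  have hq : 1 ≤ r ^ f := Nat.one_le_pow _ _ (by omega)
  have h1 := geom_sum_mul_of_one_le hq m
  have h2 : (∑ i ∈ Finset.range m, (r ^ f) ^ i) ∣ (r ^ f) ^ m - 1 := ⟨_, h1.symm⟩
  have h3 := (ZMod.natCast_eq_zero_iff _ _).2 h2
  rw [Nat.cast_sub (Nat.one_le_pow _ _ (by omega)), sub_eq_zero] at h3
  rw [pow_mul]
  exact_mod_cast h3

/-- reduction of the exponent -/
theorem exists_red (hr : 2 ≤ r) (hf : 0 < f) (hm : 2 ≤ m) (t : ℕ) (ε : ZMod (∑ i ∈ Finset.range m, (r ^ f) ^ i))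
    (hε : ε * ε = 1) (h : ((r : ZMod (∑ i ∈ Finset.range m, (r ^ f) ^ i)) ^ t) = ε) :
    ∃ u : ℕ, 2 * u ≤ f * m ∧ (f ∣ u → f ∣ t) ∧ ((r : ZMod (∑ i ∈ Finset.range m, (r ^ f) ^ i)) ^ u) = ε := by
  have h0 := geo_pow_eq (f := f) (m := m) hr
  have h1 : ((r : ZMod (∑ i ∈ Finset.range m, (r ^ f) ^ i)) ^ (t % (f * m))) = ε := by
    rw [← h]
    conv_rhs => rw [← Nat.mod_add_div t (f * m), pow_add, pow_mul, h0, one_pow, mul_one]
  have hd : f ∣ t % (f * m) → f ∣ t := fun h2 => (Nat.dvd_mod_iff (dvd_mul_right f m)).1 h2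
  have hlt : t % (f * m) < f * m := Nat.mod_lt _ (by positivity)
  by_cases h2 : 2 * (t % (f * m)) ≤ f * m
  · exact ⟨_, h2, hd, h1⟩
  · refine ⟨f * m - t % (f * m), by omega, fun h3 => hd ?_, ?_⟩
    · have h4 : t % (f * m) = f * m - (f * m - t % (f * m)) := by omega
      rw [h4]
      exact Nat.dvd_sub (dvd_mul_right f m) h3
    · have h3 : ((r : ZMod (∑ i ∈ Finset.range m, (r ^ f) ^ i)) ^ (f * m - t % (f * m))) * ε = 1 := by
        rw [← h0, ← h1, ← pow_add]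
        congr 1
        omega
      calc _ = ((r : ZMod (∑ i ∈ Finset.range m, (r ^ f) ^ i)) ^ (f * m - t % (f * m))) * (ε * ε) := by
            rw [hε, mul_one]
        _ = _ := by rw [← mul_assoc, h3, one_mul]

theorem dvd_of_sub (hr : 2 ≤ r) (hf : 0 < f) (hm : 2 ≤ m) {t : ℕ}
    (h : (∑ i ∈ Finset.range m, (r ^ f) ^ i) ∣ r ^ t - 1) : f ∣ t := by
  have h3 := (ZMod.natCast_eq_zero_iff _ _).2 h
  rw [Nat.cast_sub (Nat.one_le_pow _ _ (by omega)), sub_eq_zero] at h3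
  obtain ⟨u, hu, hd, h4⟩ := exists_red hr hf hm t 1 (one_mul 1) (by exact_mod_cast h3)
  apply hd
  have h5 : (∑ i ∈ Finset.range m, (r ^ f) ^ i) ∣ r ^ u - 1 := by
    rw [← ZMod.natCast_eq_zero_iff, Nat.cast_sub (Nat.one_le_pow _ _ (by omega)), sub_eq_zero]
    exact_mod_cast h4
  obtain ⟨k, rfl⟩ : ∃ k, m = k + 2 := ⟨m - 2, by omega⟩
  have h6 := geo_lower k (r ^ f)
  have h7 : r ^ u ≤ (r ^ f) ^ (k + 1) := by
    rw [← pow_mul]
    apply Nat.pow_le_pow_right (by omega)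
    nlinarith
  have h8 : r ^ u - 1 = 0 := by
    by_contra hne
    have := Nat.le_of_dvd (Nat.pos_of_ne_zero hne) h5
    omega
  have h9 : u = 0 := by
    by_contra hne
    have := Nat.one_lt_pow hne (show 1 < r by omega)
    omega
  rw [h9]
  exact dvd_zero f

theorem dvd_of_add (hr : 2 ≤ r) (hf : 0 < f) (hm : 2 ≤ m) {t : ℕ}
    (h : (∑ i ∈ Finset.range m, (r ^ f) ^ i) ∣ r ^ t + 1) : m = 2 ∧ f ∣ t := by
  have h3 := (ZMod.natCast_eq_zero_iff _ _).2 h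
  obtain ⟨u, hu, hd, h4⟩ := exists_red hr hf hm t (-1) (by ring) (by
    rw [eq_neg_iff_add_eq_zero]
    exact_mod_cast h3)
  have h5 : (∑ i ∈ Finset.range m, (r ^ f) ^ i) ∣ r ^ u + 1 := by
    rw [← ZMod.natCast_eq_zero_iff]
    push_cast
    rw [h4]
    ring
  have h9 := Nat.le_of_dvd (Nat.succ_pos _) h5
  obtain ⟨k, rfl⟩ : ∃ k, m = k + 2 := ⟨m - 2, by omega⟩
  have hlow := geo_lower k (r ^ f)
  have h7 : r ^ u ≤ (r ^ f) ^ (k + 1) := by
    rw [← pow_mul]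
    apply Nat.pow_le_pow_right (by omega)
    nlinarith
  have hk : k = 0 := by
    by_contra hk
    have := geo_lower' k (r ^ f) (by omega)
    have h10 : 0 < r ^ f := Nat.pow_pos (by omega)
    omega
  subst hk
  refine ⟨rfl, hd ?_⟩
  have h8 : r ^ u = r ^ f := by
    rw [zero_add, pow_one] at h7 hlow
    omega
  have h10 : u = f := Nat.pow_right_injective hr h8
  rw [h10]

end Cfsg.Agent.H732.ExtPSL
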